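import Cfsg.Agent.LSSL.Wt
import Cfsg.Agent.E6Min.Tab

set_option autoImplicit false
set_option linter.unusedSectionVars false

/-!
# Weight spaces of root subgroups of type E6 (helper19)
-/

namespace Cfsg.Agent.E6Min

open Module Cfsg.Agent.H39 Cfsg.Agent.LSU Cfsg.Agent.LSSL

/-- the action of the root elements on a vector space -/
structure Act (F V : Type*) [Field F] [AddCommGroup V] [Module ℂ V] where
  T : ℕ → F → (V →ₗ[ℂ] V)
  C : ℕ → ℕ → F
  add : ∀ r, r < 72 → ∀ s t v, T r (s + t) v = T r s (T r t v)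
  zero : ∀ r, r < 72 → ∀ v, T r 0 v = v
  comm : ∀ r s, r < 72 → s < 72 → s ≠ r → s ≠ 71 - r → sm r s = 127 → ∀ t u v, T s u (T r t v) = T r t (T s u v)
  C_ne : ∀ r s, r < 72 → s < 72 → s ≠ r → s ≠ 71 - r → sm r s ≠ 127 → C r s ≠ 0
  shift : ∀ r s, r < 72 → s < 72 → s ≠ r → s ≠ 71 - r → sm r s ≠ 127 → ∀ t u v,
    T r t (T s u v) = T s u (T r t (T (sm r s) (C r s * t * u) v))
  refl : ∀ i, i < 6 → ∃ N : V ≃ₗ[ℂ] V, ∀ s, s < 72 → ∃ η : F, η ≠ 0 ∧ ∀ t v, N (T s t v) = T (rf i s) (η * t) (N v)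

variable {F V : Type*} [Field F] [Fintype F] [AddCommGroup V] [Module ℂ V] [FiniteDimensional ℂ V]

section gen

/-- decomposition of an invariant subspace -/
theorem split_gen {ψ : AddChar F ℂ} (hψ : ψ ≠ 0) (W0 : Submodule ℂ V) (U : F → (V →ₗ[ℂ] V)) (h0 : ∀ v, U 0 v = v)
    (hU : ∀ a b v, U (a + b) v = U a (U b v)) (hW : ∀ t, ∀ v ∈ W0, U t v ∈ W0) (Wa : F → Submodule ℂ V)
    (hWa : ∀ a v, v ∈ Wa a ↔ v ∈ W0 ∧ ∀ t, U t v = ψ (a * t) • v) :
    finrank ℂ W0 = ∑ a : F, finrank ℂ (Wa a) := by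
  classical
  let U' : F → (W0 →ₗ[ℂ] W0) := fun t => (U t).restrict (hW t)
  have h0' : ∀ v, U' 0 v = v := fun v => Subtype.ext (h0 v)
  have hU' : ∀ a b v, U' (a + b) v = U' a (U' b v) := fun a b v => Subtype.ext (hU a b v)
  have h := trace_U h0' hU' 0
  have h1 : U' 0 = 1 := LinearMap.ext h0'
  rw [h1, LinearMap.trace_one] at h
  have h2 : ((finrank ℂ W0 : ℕ) : ℂ) = ((∑ χ : AddChar F ℂ, finrank ℂ (wt U' χ) : ℕ) : ℂ) := by
    rw [h]
    push_cast
    exact Finset.sum_congr rfl fun χ _ => by rw [AddChar.map_zero_eq_one, one_mul]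
  have h3 : finrank ℂ W0 = ∑ χ : AddChar F ℂ, finrank ℂ (wt U' χ) := by exact_mod_cast h2
  rw [h3]
  have hprim := AddChar.IsPrimitive.of_ne_one (ψ := ψ) (by rwa [AddChar.one_eq_zero])
  have hinj := AddChar.to_mulShift_inj_of_isPrimitive hprim
  have hbij : Function.Bijective (fun a : F => AddChar.mulShift ψ a) := by
    refine ⟨hinj, fun φ => ?_⟩
    obtain ⟨b, hb⟩ := exists_shift hψ φ
    refine ⟨b, ?_⟩
    ext x
    rw [AddChar.mulShift_apply, hb]
  symm
  refine Fintype.sum_bijective _ hbij _ _ fun a => ?_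
  have h4 : (wt U' (AddChar.mulShift ψ a)).map W0.subtype = Wa a := by
    ext v
    rw [Submodule.mem_map, hWa]
    constructor
    · rintro ⟨w, hw, rfl⟩
      refine ⟨w.2, fun t => ?_⟩
      have := congrArg Subtype.val (hw t)
      rw [AddChar.mulShift_apply] at this
      exact this
    · rintro ⟨hv, hv2⟩
      refine ⟨⟨v, hv⟩, fun t => ?_, rfl⟩
      apply Subtype.ext
      rw [AddChar.mulShift_apply]
      exact hv2 t
  rw [← h4]
  exact Submodule.finrank_map_subtype_eq _ _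

end gen

namespace Act

variable (A : Act F V) (ψ : AddChar F ℂ)

/-- weight spaces -/
def W (S : List ℕ) (c : ℕ → F) : Submodule ℂ V where
  carrier := {v | ∀ r ∈ S, ∀ t, A.T r t v = ψ (c r * t) • v}
  add_mem' := by
    intro v w hv hw r hr t
    rw [map_add, hv r hr, hw r hr, smul_add]
  zero_mem' := by
    intro r hr t
    rw [map_zero, smul_zero]
  smul_mem' := by
    intro a v hv r hr t
    rw [map_smul, hv r hr, smul_comm]

theorem mem_W {S : List ℕ} {c : ℕ → F} {v : V} : v ∈ A.W ψ S c ↔ ∀ r ∈ S, ∀ t, A.T r t v = ψ (c r * t) • v := Iff.rfl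

theorem mem_W_cons {S : List ℕ} {c : ℕ → F} {r : ℕ} {v : V} :
    v ∈ A.W ψ (r :: S) c ↔ (∀ t, A.T r t v = ψ (c r * t) • v) ∧ v ∈ A.W ψ S c := by
  rw [mem_W, mem_W, List.forall_mem_cons]

/-- dimension of weight spaces -/
noncomputable def d (S : List ℕ) (c : ℕ → F) : ℕ := finrank ℂ (A.W ψ S c)

theorem W_congr {S : List ℕ} {c c' : ℕ → F} (h : ∀ r ∈ S, c r = c' r) : A.W ψ S c = A.W ψ S c' := by
  ext v
  rw [mem_W, mem_W]
  exact forall₂_congr fun r hr => by rw [h r hr]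

theorem W_perm {S S' : List ℕ} {c : ℕ → F} (h : ∀ r, r ∈ S ↔ r ∈ S') : A.W ψ S c = A.W ψ S' c := by
  ext v
  rw [mem_W, mem_W]
  exact ⟨fun H r hr => H r ((h r).2 hr), fun H r hr => H r ((h r).1 hr)⟩

theorem W_mono {S S' : List ℕ} {c : ℕ → F} (h : ∀ r ∈ S', r ∈ S) : A.W ψ S c ≤ A.W ψ S' c :=
  fun _ hv r hr => hv r (h r hr)

theorem d_mono {S S' : List ℕ} {c : ℕ → F} (h : ∀ r ∈ S', r ∈ S) : A.d ψ S c ≤ A.d ψ S' c :=
  Submodule.finrank_mono (A.W_mono ψ h)

theorem T_inj {s : ℕ} (hs : s < 72) (u : F) : Function.Injective (A.T s u) := by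
  have h : Function.LeftInverse (A.T s (-u)) (A.T s u) := by
    intro v
    rw [← A.add s hs, neg_add_cancel, A.zero s hs]
  exact h.injective

theorem le_of_map {W1 W2 : Submodule ℂ V} (N : V →ₗ[ℂ] V) (hN : Function.Injective N) (h : ∀ v ∈ W1, N v ∈ W2) :
    finrank ℂ W1 ≤ finrank ℂ W2 := by
  refine LinearMap.finrank_le_finrank_of_injective (f := N.restrict h) ?_
  intro v w hvw
  apply Subtype.ext
  apply hN
  exact congrArg Subtype.val hvw

/-- condition: the set is closed under adding `s` -/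
def ok (S : List ℕ) (s : ℕ) : Bool := Nat.blt s 72 && S.all fun r => Nat.blt r 72 && !(s == 71 - r) && (r == s || sm r s == 127 || S.contains (sm r s))

theorem ok_iff {S : List ℕ} {s : ℕ} : ok S s = true ↔ s < 72 ∧ ∀ r ∈ S, r < 72 ∧ s ≠ 71 - r ∧ (r = s ∨ sm r s = 127 ∨ sm r s ∈ S) := by
  unfold ok
  rw [Bool.and_eq_true, List.all_eq_true, Nat.blt_eq]
  refine and_congr_right fun _ => forall₂_congr fun r _ => ?_
  simp only [Bool.and_eq_true, Bool.or_eq_true, Nat.blt_eq, beq_iff_eq, Bool.not_eq_true', beq_eq_false_iff_ne, List.contains_iff_mem]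
  tauto

/-- the shifted weight -/
def sh (s : ℕ) (u : F) (c : ℕ → F) : ℕ → F := fun r => if r = s ∨ sm r s = 127 then c r else c r + A.C r s * u * c (sm r s)

theorem T_mem {S : List ℕ} {s : ℕ} (h : ok S s = true) {c : ℕ → F} {v : V} (hv : v ∈ A.W ψ S c) (u : F) :
    A.T s u v ∈ A.W ψ S (A.sh s u c) := by
  rw [ok_iff] at h
  obtain ⟨hs, h⟩ := h
  intro r hr t
  obtain ⟨hr72, hrs, h3⟩ := h r hr
  unfold sh
  by_cases e1 : r = s
  · rw [if_pos (Or.inl e1)]
    subst e1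
    rw [← A.add r hs, add_comm, A.add r hs, hv r hr, map_smul]
  by_cases e2 : sm r s = 127
  · rw [if_pos (Or.inr e2), ← A.comm r s hr72 hs (Ne.symm e1) hrs e2, hv r hr, map_smul]
  · rw [if_neg (by tauto), A.shift r s hr72 hs (Ne.symm e1) hrs e2]
    have h4 : sm r s ∈ S := by tauto
    rw [hv _ h4, map_smul, map_smul, hv r hr, map_smul, smul_smul, ← AddChar.map_add_eq_mul]
    congr 2
    ring

/-- weights supported at one root -/
def one (r0 : ℕ) (a : F) : ℕ → F := fun r => if r = r0 then a else 0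

/-- `X_s` preserves the weight space supported at `r0` -/
def pres (S : List ℕ) (r0 s : ℕ) : Bool := ok S s && S.all fun r => r == s || sm r s == 127 || !(sm r s == r0)

theorem pres_iff {S : List ℕ} {r0 s : ℕ} : pres S r0 s = true ↔ ok S s = true ∧ ∀ r ∈ S, r = s ∨ sm r s = 127 ∨ sm r s ≠ r0 := by
  unfold pres
  rw [Bool.and_eq_true, List.all_eq_true]
  refine and_congr_right fun _ => forall₂_congr fun r _ => ?_
  simp only [Bool.or_eq_true, beq_iff_eq, Bool.not_eq_true', beq_eq_false_iff_ne]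
  tauto

theorem T_mem_pres {S : List ℕ} {r0 s : ℕ} (h : pres S r0 s = true) {a : F} {v : V} (hv : v ∈ A.W ψ S (one r0 a)) (u : F) :
    A.T s u v ∈ A.W ψ S (one r0 a) := by
  rw [pres_iff] at h
  have h1 := A.T_mem ψ h.1 hv u
  rwa [A.W_congr ψ (c' := one r0 a)] at h1
  intro r hr
  unfold sh
  split_ifs with h2
  · rfl
  · have h3 : sm r s ≠ r0 := by
      have := h.2 r hr
      tauto
    show one r0 a r + A.C r s * u * one r0 a (sm r s) = one r0 a r
    rw [show one r0 a (sm r s) = (0 : F) from if_neg h3, mul_zero, add_zero]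

theorem lt_of_ok {S : List ℕ} {s : ℕ} (h : ok S s = true) : s < 72 := (ok_iff.1 h).1
theorem lt_of_pres {S : List ℕ} {r0 s : ℕ} (h : pres S r0 s = true) : s < 72 := lt_of_ok (pres_iff.1 h).1

variable {ψ}
variable (hψ : ψ ≠ 0)
include hψ

theorem split {S : List ℕ} {c : ℕ → F} {r : ℕ} (hr : r < 72) (hinv : ∀ u, ∀ v ∈ A.W ψ S c, A.T r u v ∈ A.W ψ S c) (hrS : r ∉ S) :
    A.d ψ S c = ∑ a : F, A.d ψ (r :: S) (Function.update c r a) := by
  refine split_gen hψ (A.W ψ S c) (A.T r) (A.zero r hr) (A.add r hr) hinv _ fun a v => ?_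
  rw [mem_W_cons, Function.update_self, and_comm]
  refine and_congr_left fun _ => ?_
  rw [A.W_congr ψ (c' := c)]
  intro x hx
  exact Function.update_of_ne (by rintro rfl; exact hrS hx) _ _

theorem split_one {S : List ℕ} {r0 r : ℕ} (h : pres S r0 r = true) (hrS : r ∉ S) (a : F) :
    A.d ψ S (one r0 a) = ∑ b : F, A.d ψ (r :: S) (Function.update (one r0 a) r b) :=
  A.split hψ (lt_of_pres h) (fun u _ hv => A.T_mem_pres ψ h hv u) hrS

end Act

end Cfsg.Agent.E6Min
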