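import Cfsg.Agent.E6Min.Act2

set_option autoImplicit false
set_option linter.unusedSectionVars false

/-!
# Weight spaces of root subgroups of type E6: constants, peeling, reflections (helper19)
-/

namespace Cfsg.Agent.E6Min

open Module Cfsg.Agent.H39 Cfsg.Agent.LSU Cfsg.Agent.LSSL

variable {F V : Type*} [Field F] [Fintype F] [AddCommGroup V] [Module ℂ V] [FiniteDimensional ℂ V]

namespace Act

variable (A : Act F V) {ψ : AddChar F ℂ}

/-- all conditions for a pair of roots -/
def okPair (R : List ℕ) (r r' s : ℕ) : Bool :=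
  okp R r r' s && okp R r' r (71 - s) && pres (r' :: R) r' r && pres (r :: R) r r' && !(R.contains r) && !(R.contains r')

theorem not_contains {S : List ℕ} {r : ℕ} (h : S.contains r = false) : r ∉ S := by
  intro hc
  rw [List.contains_iff_mem.2 hc] at h
  exact Bool.noConfusion h

theorem pair_R (hψ : ψ ≠ 0) {R : List ℕ} {r r' s : ℕ} (h : okPair R r r' s = true) :
    ∃ m : ℕ, (∀ a : F, a ≠ 0 → A.d ψ (r :: R) (one r a) = Fintype.card F * m) ∧
      (∀ b : F, b ≠ 0 → A.d ψ (r' :: R) (one r' b) = Fintype.card F * m) ∧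
      ∀ a b : F, (a ≠ 0 ∨ b ≠ 0) → A.d ψ (r :: r' :: R) (two r r' a b) = m := by
  classical
  unfold okPair at h
  simp only [Bool.and_eq_true, Bool.not_eq_true'] at h
  obtain ⟨⟨⟨⟨⟨h1, h2⟩, h3⟩, h4⟩, h5⟩, h6⟩ := h
  have h5 := not_contains h5
  have h6 := not_contains h6
  have hne : r ≠ r' := by
    unfold okp at h1
    simp only [Bool.and_eq_true, beq_iff_eq, Bool.not_eq_true', beq_eq_false_iff_ne] at h1
    exact h1.1.2
  refine ⟨A.d ψ (r :: r' :: R) (two r r' 1 1), fun a ha => ?_, fun b hb => ?_, fun a b hab =>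
    A.pair_const h1 h2 hab (Or.inl one_ne_zero)⟩
  · rw [A.split_one hψ h4 (by rw [List.mem_cons]; rintro (e | e); exact hne e.symm; exact h6 e)]
    rw [Finset.sum_congr rfl (g := fun _ => A.d ψ (r :: r' :: R) (two r r' 1 1)), Finset.sum_const, Finset.card_univ, smul_eq_mul]
    intro b _
    rw [← A.pair_const h1 h2 (a := a) (b := b) (Or.inl ha) (Or.inl one_ne_zero)]
    unfold d
    rw [A.W_perm ψ (S' := r :: r' :: R) (by intro x; simp only [List.mem_cons]; tauto), A.W_congr ψ (c' := two r r' a b)]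
    intro x _
    unfold two one
    by_cases e1 : x = r'
    · subst e1
      rw [Function.update_self, if_neg (Ne.symm hne), if_pos rfl]
    · rw [Function.update_of_ne e1, if_neg e1]
  · rw [A.split_one hψ h3 (by rw [List.mem_cons]; rintro (e | e); exact hne e; exact h5 e)]
    rw [Finset.sum_congr rfl (g := fun _ => A.d ψ (r :: r' :: R) (two r r' 1 1)), Finset.sum_const, Finset.card_univ, smul_eq_mul]
    intro a _
    rw [← A.pair_const h1 h2 (a := a) (b := b) (Or.inr hb) (Or.inl one_ne_zero)]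
    unfold d
    rw [A.W_congr ψ (c' := two r r' a b)]
    intro x _
    unfold two one
    by_cases e1 : x = r
    · subst e1
      rw [Function.update_self, if_pos rfl]
    · rw [Function.update_of_ne e1, if_neg e1]

/-- peeling off one root -/
theorem peel (hψ : ψ ≠ 0) {S : List ℕ} {r : ℕ} (h : pres S 100 r = true) (hr : r ∉ S) {n : ℕ}
    (hn : ∀ a : F, a ≠ 0 → n ≤ A.d ψ (r :: S) (one r a)) :
    A.d ψ (r :: S) (fun _ => 0) + (Fintype.card F - 1) * n ≤ A.d ψ S (fun _ => 0) := by
  classical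
  have h1 := A.split_one hψ h hr 0
  rw [one_zero] at h1
  rw [h1, ← Finset.add_sum_erase _ _ (Finset.mem_univ (0 : F))]
  have h2 : Function.update (fun _ : ℕ => (0 : F)) r 0 = fun _ => 0 := by
    rw [Function.update_eq_self_iff]
  rw [h2]
  refine Nat.add_le_add_left ?_ _
  have h3 : ∀ a ∈ Finset.univ.erase (0 : F), n ≤ A.d ψ (r :: S) (Function.update (fun _ : ℕ => (0 : F)) r a) := by
    intro a ha
    have h4 : Function.update (fun _ : ℕ => (0 : F)) r a = one r a := by
      funext x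
      unfold one
      by_cases e : x = r
      · subst e; rw [Function.update_self, if_pos rfl]
      · rw [Function.update_of_ne e, if_neg e]
    rw [h4]
    exact hn a (Finset.ne_of_mem_erase ha)
  calc (Fintype.card F - 1) * n = ∑ a ∈ Finset.univ.erase (0 : F), n := by
        rw [Finset.sum_const, Finset.card_erase_of_mem (Finset.mem_univ _), Finset.card_univ, smul_eq_mul]
    _ ≤ _ := Finset.sum_le_sum h3

/-- exact peeling -/
theorem peel_eq (hψ : ψ ≠ 0) {S : List ℕ} {r : ℕ} (h : pres S 100 r = true) (hr : r ∉ S) {n : ℕ}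
    (hn : ∀ a : F, a ≠ 0 → A.d ψ (r :: S) (one r a) = n) :
    A.d ψ (r :: S) (fun _ => 0) + (Fintype.card F - 1) * n = A.d ψ S (fun _ => 0) := by
  classical
  have h1 := A.split_one hψ h hr 0
  rw [one_zero] at h1
  rw [h1, ← Finset.add_sum_erase _ _ (Finset.mem_univ (0 : F))]
  have h2 : Function.update (fun _ : ℕ => (0 : F)) r 0 = fun _ => 0 := by
    rw [Function.update_eq_self_iff]
  rw [h2]
  congr 1
  have h3 : ∀ a ∈ Finset.univ.erase (0 : F), A.d ψ (r :: S) (Function.update (fun _ : ℕ => (0 : F)) r a) = n := by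
    intro a ha
    have h4 : Function.update (fun _ : ℕ => (0 : F)) r a = one r a := by
      funext x
      unfold one
      by_cases e : x = r
      · subst e; rw [Function.update_self, if_pos rfl]
      · rw [Function.update_of_ne e, if_neg e]
    rw [h4]
    exact hn a (Finset.ne_of_mem_erase ha)
  rw [Finset.sum_congr rfl h3, Finset.sum_const, Finset.card_erase_of_mem (Finset.mem_univ _), Finset.card_univ, smul_eq_mul]

theorem d_nil : A.d ψ [] (fun _ => 0) = finrank ℂ V := by
  unfold d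
  have : A.W ψ [] (fun _ => (0 : F)) = ⊤ := by
    rw [eq_top_iff]
    intro v _ r hr
    exact absurd hr (List.not_mem_nil)
  rw [this, finrank_top]

/-- reflections -/
theorem refl_step {i r : ℕ} {S : List ℕ} (hi : i < 6) (hr : r < 72) (hS : ∀ x ∈ S, x < 72) (hno : rf i r ∉ S.map (rf i))
    (H : ∀ a : F, a ≠ 0 → 1 ≤ A.d ψ (r :: S) (one r a)) {a : F} (ha : a ≠ 0) :
    1 ≤ A.d ψ (rf i r :: S.map (rf i)) (one (rf i r) a) := by
  obtain ⟨N, hN⟩ := A.refl i hi
  obtain ⟨η, hη, hN2⟩ := hN r hr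
  refine (H (a * η) (mul_ne_zero ha hη)).trans (le_of_map (N : V →ₗ[ℂ] V) N.injective fun v hv => ?_)
  rw [mem_W_cons] at hv ⊢
  refine ⟨fun t => ?_, fun y hy t => ?_⟩
  · have h1 := hN2 (η⁻¹ * t) v
    rw [mul_inv_cancel_left₀ hη, hv.1, one_self, map_smul] at h1
    show A.T (rf i r) t (N v) = _ • N v
    rw [← h1, one_self]
    congr 2
    field_simp
  · obtain ⟨x, hx, rfl⟩ := List.mem_map.1 hy
    have hxr : x ≠ r := by
      rintro rfl
      exact hno hy
    have hne : rf i x ≠ rf i r := by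
      intro e
      rw [e] at hy
      exact hno hy
    obtain ⟨η', hη', hN3⟩ := hN x (hS x hx)
    have h1 := hN3 (η'⁻¹ * t) v
    rw [mul_inv_cancel_left₀ hη', hv.2 x hx, one_ne hxr, zero_mul, AddChar.map_zero_eq_one, one_smul] at h1
    show A.T (rf i x) t (N v) = _ • N v
    rw [← h1, one_ne hne, zero_mul, AddChar.map_zero_eq_one, one_smul]

/-- transport by a word in the simple reflections -/
def tr : List ℕ → ℕ → List ℕ → Bool × ℕ × List ℕ
  | [], x, S => (Nat.blt x 72 && S.all fun y => Nat.blt y 72, x, S)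
  | i :: w, x, S =>
    let p := tr w x S
    let x' := rf i p.2.1
    let S' := p.2.2.map (rf i)
    (p.1 && Nat.blt i 6 && !(S'.contains x') && Nat.blt x' 72 && S'.all fun y => Nat.blt y 72, x', S')

theorem tr_spec {x : ℕ} {S : List ℕ} (H : ∀ a : F, a ≠ 0 → 1 ≤ A.d ψ (x :: S) (one x a)) : ∀ (w : List ℕ), (tr w x S).1 = true →
    (tr w x S).2.1 < 72 ∧ (∀ y ∈ (tr w x S).2.2, y < 72) ∧
    ∀ a : F, a ≠ 0 → 1 ≤ A.d ψ ((tr w x S).2.1 :: (tr w x S).2.2) (one (tr w x S).2.1 a) := by
  intro w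
  induction w with
  | nil =>
    intro h
    have h' : (Nat.blt x 72 && S.all fun y => Nat.blt y 72) = true := h
    rw [Bool.and_eq_true, List.all_eq_true, Nat.blt_eq] at h'
    exact ⟨h'.1, fun y hy => by have := h'.2 y hy; rwa [Nat.blt_eq] at this, H⟩
  | cons i w ih =>
    intro h
    have h' : ((tr w x S).1 && Nat.blt i 6 && !(((tr w x S).2.2.map (rf i)).contains (rf i (tr w x S).2.1)) &&
      Nat.blt (rf i (tr w x S).2.1) 72 && ((tr w x S).2.2.map (rf i)).all fun y => Nat.blt y 72) = true := h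
    simp only [Bool.and_eq_true, Bool.not_eq_true', Nat.blt_eq] at h'
    obtain ⟨⟨⟨⟨h1, h2⟩, h3⟩, h4⟩, h5⟩ := h'
    obtain ⟨i1, i2, i3⟩ := ih h1
    rw [List.all_eq_true] at h5
    exact ⟨h4, fun y hy => by have := h5 y hy; rwa [Nat.blt_eq] at this, fun a ha => A.refl_step h2 i1 i2 (not_contains h3) i3 ha⟩

/-- list version of `triv` -/
def trv (S : List ℕ) (r0 : ℕ) (L : List (ℕ × ℕ)) : Bool := L.all fun p =>
  pres S r0 p.1 && pres S r0 p.2 && !(p.2 == p.1) && !(p.2 == 71 - p.1) && !(sm p.1 p.2 == 127) && !(sm p.1 p.2 == r0)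

theorem triv_list {S : List ℕ} {r0 : ℕ} {a : F} (hd : A.d ψ S (one r0 a) = 1) {L : List (ℕ × ℕ)} (h : trv S r0 L = true) :
    A.d ψ (L.map (fun p => sm p.1 p.2) ++ S) (one r0 a) = 1 := by
  unfold trv at h
  rw [List.all_eq_true] at h
  rw [← hd]
  suffices e : A.W ψ (L.map (fun p => sm p.1 p.2) ++ S) (one r0 a) = A.W ψ S (one r0 a) by
    unfold d
    rw [e]
  ext v
  constructor
  · intro hv r hr
    exact hv r (List.mem_append_right _ hr)
  · intro hv r hr t
    rcases List.mem_append.1 hr with hr | hr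
    · obtain ⟨p, hp, rfl⟩ := List.mem_map.1 hr
      have h1 := h p hp
      simp only [Bool.and_eq_true, Bool.not_eq_true', beq_eq_false_iff_ne] at h1
      obtain ⟨⟨⟨⟨⟨h1, h2⟩, h3⟩, h4⟩, h5⟩, h6⟩ := h1
      rw [A.triv hd h1 h2 h3 h4 h5 hv, one_ne h6, zero_mul, AddChar.map_zero_eq_one, one_smul]
    · exact hv r hr t

end Act

end Cfsg.Agent.E6Min
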