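import Cfsg.Agent.E6Min.Cert

set_option autoImplicit false
set_option linter.unusedSectionVars false

/-!
# The lower bound for E6 (helper19)
-/

namespace Cfsg.Agent.E6Min

open Module Cfsg.Agent.H39 Cfsg.Agent.LSU Cfsg.Agent.LSSL

variable {F V : Type*} [Field F] [Fintype F] [AddCommGroup V] [Module ℂ V] [FiniteDimensional ℂ V]

namespace Act

variable (A : Act F V) {ψ : AddChar F ℂ}

theorem d_perm {S S' : List ℕ} {c : ℕ → F} (h : ∀ r, r ∈ S ↔ r ∈ S') : A.d ψ S c = A.d ψ S' c := by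
  unfold d
  rw [A.W_perm ψ h]

/-- the dimension of a nontrivial weight space of a root subgroup -/
theorem kappa (hψ : ψ ≠ 0) : ∃ κ : ℕ, ∀ r, r < 72 → ∀ a : F, a ≠ 0 → A.d ψ [r] (one r a) = κ := by
  refine ⟨A.d ψ [0] (one 0 1), ?_⟩
  have hcon : ∀ j, j < 71 → (conT.getD j (0, 0)).1 < j + 1 ∧ okPair [] (conT.getD j (0, 0)).1 (j + 1) (conT.getD j (0, 0)).2 = true := by
    intro j hj
    have h := List.all_eq_true.1 conChk_all j (List.mem_range.2 hj)
    have h' : (Nat.blt (conT.getD j (0, 0)).1 (j + 1) && okPair [] (conT.getD j (0, 0)).1 (j + 1) (conT.getD j (0, 0)).2) = true := h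
    rwa [Bool.and_eq_true, Nat.blt_eq] at h'
  -- first the value at zero
  have h0 : ∀ a : F, a ≠ 0 → A.d ψ [0] (one 0 a) = A.d ψ [0] (one 0 1) := by
    intro a ha
    obtain ⟨h1, h2⟩ := hcon 0 (by norm_num)
    have h3 : (conT.getD 0 (0, 0)).1 = 0 := by omega
    rw [h3] at h2
    obtain ⟨m, m1, -, -⟩ := A.pair_R hψ h2
    rw [m1 a ha, m1 1 one_ne_zero]
  intro r
  induction r using Nat.strong_induction_on with
  | _ r ih =>
    intro hr a ha
    rcases Nat.eq_zero_or_pos r with rfl | hpos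
    · exact h0 a ha
    obtain ⟨j, rfl⟩ : ∃ j, r = j + 1 := ⟨r - 1, by omega⟩
    obtain ⟨h1, h2⟩ := hcon j (by omega)
    obtain ⟨m, m1, m2, -⟩ := A.pair_R hψ h2
    rw [m2 a ha, ← m1 a ha]
    exact ih _ h1 (by omega) a ha

/-- the transfer -/
theorem transfer (hψ : ψ ≠ 0) {x y z : ℕ} {R : List ℕ} (h1 : okPair R x z y = true) (h2 : okPair R y z x = true)
    (h3 : pres (x :: z :: R) x y = true) (h4 : pres (y :: z :: R) y x = true) (hy : y ∉ x :: z :: R) (hx : x ∉ y :: z :: R)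
    (hm : ∀ a : F, a ≠ 0 → A.d ψ (x :: z :: R) (one x a) ≤ 1)
    (H : ∀ a : F, a ≠ 0 → 1 ≤ A.d ψ (y :: x :: z :: R) (one x a)) {a : F} (ha : a ≠ 0) :
    1 ≤ A.d ψ (y :: x :: z :: R) (one y a) := by
  classical
  obtain ⟨m1, a1, a2, a3⟩ := A.pair_R hψ h1
  obtain ⟨m2, b1, b2, b3⟩ := A.pair_R hψ h2
  have hm12 : m1 = m2 := by
    have := (a2 1 one_ne_zero).symm.trans (b2 1 one_ne_zero)
    exact Nat.eq_of_mul_eq_mul_left Fintype.card_pos this
  have hxy : x ≠ y := by rintro rfl; exact hy List.mem_cons_self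
  have hxz : x ≠ z := by rintro rfl; exact hx (List.mem_cons_of_mem _ List.mem_cons_self)
  have hyz : y ≠ z := by rintro rfl; exact hy (List.mem_cons_of_mem _ List.mem_cons_self)
  have e1 : ∀ a : F, a ≠ 0 → A.d ψ (x :: z :: R) (one x a) = m1 := by
    intro a ha
    rw [← a3 a 0 (Or.inl ha)]
    unfold d
    rw [A.W_congr ψ]
    intro w _
    unfold one two
    split_ifs <;> rfl
  have e2 : ∀ a : F, a ≠ 0 → A.d ψ (y :: z :: R) (one y a) = m2 := by
    intro a ha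
    rw [← b3 a 0 (Or.inl ha)]
    unfold d
    rw [A.W_congr ψ]
    intro w _
    unfold one two
    split_ifs <;> rfl
  have hupd : ∀ a b : F, Function.update (one x a) y b = two x y a b := by
    intro a b
    funext w
    unfold two one
    by_cases h : w = y
    · subst h; rw [Function.update_self, if_neg (Ne.symm hxy), if_pos rfl]
    · rw [Function.update_of_ne h, if_neg h]
  have hupd' : ∀ a b : F, Function.update (one y b) x a = two x y a b := by
    intro a b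
    funext w
    unfold two one
    by_cases h : w = x
    · subst h; rw [Function.update_self, if_pos rfl]
    · rw [Function.update_of_ne h, if_neg h]
  have s1 : ∀ a : F, a ≠ 0 → m1 = ∑ b : F, A.d ψ (y :: x :: z :: R) (two x y a b) := by
    intro a ha
    rw [← e1 a ha, A.split_one hψ h3 hy]
    exact Finset.sum_congr rfl fun b _ => by rw [hupd]
  have hperm : ∀ c : ℕ → F, A.d ψ (x :: y :: z :: R) c = A.d ψ (y :: x :: z :: R) c := fun c =>
    A.d_perm (by intro w; simp only [List.mem_cons]; tauto)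
  have s2 : ∀ b : F, b ≠ 0 → m2 = ∑ a : F, A.d ψ (y :: x :: z :: R) (two x y a b) := by
    intro b hb
    rw [← e2 b hb, A.split_one hψ h4 hx]
    exact Finset.sum_congr rfl fun a _ => by rw [hupd', hperm]
  have t0 : ∀ a : F, two x y a 0 = one x a := by
    intro a
    funext w
    unfold two one
    split_ifs <;> rfl
  have t1 : ∀ b : F, two x y 0 b = one y b := by
    intro b
    funext w
    unfold two one
    by_cases h : w = x
    · subst h; rw [if_pos rfl, if_neg hxy]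
    · rw [if_neg h]
  have hm1 : m1 ≤ 1 := by rw [← e1 1 one_ne_zero]; exact hm 1 one_ne_zero
  have hz : ∀ a b : F, a ≠ 0 → b ≠ 0 → A.d ψ (y :: x :: z :: R) (two x y a b) = 0 := by
    intro a b ha hb
    have h5 := s1 a ha
    rw [← Finset.add_sum_erase _ _ (Finset.mem_univ (0 : F)), t0] at h5
    have h6 := H a ha
    have h7 : ∑ b ∈ Finset.univ.erase (0 : F), A.d ψ (y :: x :: z :: R) (two x y a b) = 0 := by omega
    rw [Finset.sum_eq_zero_iff] at h7
    exact h7 b (Finset.mem_erase.2 ⟨hb, Finset.mem_univ _⟩)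
  have h8 := s2 a ha
  rw [← Finset.add_sum_erase _ _ (Finset.mem_univ (0 : F)), t1] at h8
  have h9 : ∑ b ∈ Finset.univ.erase (0 : F), A.d ψ (y :: x :: z :: R) (two x y b a) = 0 :=
    Finset.sum_eq_zero fun b hb => hz b a (Finset.ne_of_mem_erase hb) ha
  have h10 : 1 ≤ m1 := by
    have h5 := s1 1 one_ne_zero
    rw [← Finset.add_sum_erase _ _ (Finset.mem_univ (0 : F)), t0] at h5
    have h6 := H 1 one_ne_zero
    omega
  omega

/-- the transfer with the computed check -/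
theorem transfer' (hψ : ψ ≠ 0) {κ : ℕ} (hκ : ∀ r, r < 72 → ∀ a : F, a ≠ 0 → A.d ψ [r] (one r a) = κ)
    (hκ10 : κ = Fintype.card F ^ 10) {x y : ℕ} {L : List (ℕ × ℕ)} (h : trfChk x y L = true)
    (H : ∀ a : F, a ≠ 0 → 1 ≤ A.d ψ P (one x a)) (a : F) (ha : a ≠ 0) : 1 ≤ A.d ψ P (one y a) := by
  have h' : (okPair (RR x y (sm x y)) x (sm x y) y && okPair (RR x y (sm x y)) y (sm x y) x && pres (x :: sm x y :: RR x y (sm x y)) x y &&
    pres (y :: sm x y :: RR x y (sm x y)) y x && !((x :: sm x y :: RR x y (sm x y)).contains y) &&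
    !((y :: sm x y :: RR x y (sm x y)).contains x) && clr L x [x] && Nat.beq L.length 10 &&
    ((clS L [x]).all fun w => (x :: sm x y :: RR x y (sm x y)).contains w) &&
    (P.all fun w => (y :: x :: sm x y :: RR x y (sm x y)).contains w) && ((y :: x :: sm x y :: RR x y (sm x y)).all fun w => P.contains w) &&
    !(x == 127) && Nat.blt x 72) = true := h
  simp only [Bool.and_eq_true, Bool.not_eq_true', List.all_eq_true, List.contains_iff_mem, Nat.beq_eq, Nat.blt_eq, beq_eq_false_iff_ne] at h'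
  obtain ⟨⟨⟨⟨⟨⟨⟨⟨⟨⟨⟨⟨h1, h2⟩, h3⟩, h4⟩, h5⟩, h6⟩, h7⟩, h8⟩, h9⟩, h10⟩, h11⟩, h12⟩, h13⟩ := h'
  have hperm : ∀ c : ℕ → F, A.d ψ (y :: x :: sm x y :: RR x y (sm x y)) c = A.d ψ P c := fun c =>
    A.d_perm fun w => ⟨fun hw => h11 w hw, fun hw => h10 w hw⟩
  rw [← hperm]
  refine A.transfer hψ h1 h2 h3 h4 (not_contains h5) (not_contains h6) (fun b hb => ?_) (fun b hb => ?_) ha
  · have h14 := A.clears hψ h12 hb L [x] List.mem_cons_self h7
    rw [hκ x h13 b hb, hκ10, h8] at h14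
    have h15 : 0 < Fintype.card F ^ 10 := pow_pos Fintype.card_pos _
    have h16 : A.d ψ (clS L [x]) (one x b) = 1 := by
      have : Fintype.card F ^ 10 * 1 = Fintype.card F ^ 10 * A.d ψ (clS L [x]) (one x b) := by rw [mul_one]; exact h14
      exact (Nat.eq_of_mul_eq_mul_left h15 this).symm
    rw [← h16]
    exact A.d_mono ψ h9
  · rw [hperm]
    exact H b hb

theorem clears0 (hψ : ψ ≠ 0) {κ : ℕ} (hκ : ∀ r, r < 72 → ∀ a : F, a ≠ 0 → A.d ψ [r] (one r a) = κ) {a : F} (ha : a ≠ 0) :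
    κ = Fintype.card F ^ 10 * A.d ψ S0 (one 56 a) := by
  have h := S0_chk
  simp only [Bool.and_eq_true] at h
  obtain ⟨⟨⟨⟨h1, -⟩, -⟩, -⟩, -⟩ := h
  rw [← hκ 56 (by norm_num) a ha]
  exact A.clears hψ (by norm_num) ha L56 [56] List.mem_cons_self h1

/-- the base weight -/
theorem base (hψ : ψ ≠ 0) {κ : ℕ} (hκ : ∀ r, r < 72 → ∀ a : F, a ≠ 0 → A.d ψ [r] (one r a) = κ)
    (hκ10 : κ = Fintype.card F ^ 10) (a : F) (ha : a ≠ 0) : 1 ≤ A.d ψ P (one 56 a) := by
  have h := S0_chk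
  simp only [Bool.and_eq_true] at h
  obtain ⟨⟨⟨⟨h1, h2⟩, h3⟩, h4⟩, h5⟩ := h
  have h6 := A.clears0 hψ hκ ha
  have h15 : 0 < Fintype.card F ^ 10 := pow_pos Fintype.card_pos _
  have h16 : A.d ψ S0 (one 56 a) = 1 := by
    have : Fintype.card F ^ 10 * 1 = Fintype.card F ^ 10 * A.d ψ S0 (one 56 a) := by rw [mul_one, ← h6, hκ10]
    exact (Nat.eq_of_mul_eq_mul_left h15 this).symm
  have h17 : A.d ψ S1 (one 56 a) = 1 := A.triv_list h16 h2
  have h18 : A.d ψ S2 (one 56 a) = 1 := A.triv_list h17 h3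
  rw [← h18]
  refine A.d_mono ψ fun r hr => ?_
  rw [List.all_eq_true] at h5
  exact List.contains_iff_mem.1 (h5 r hr)

theorem simples (hψ : ψ ≠ 0) {κ : ℕ} (hκ : ∀ r, r < 72 → ∀ a : F, a ≠ 0 → A.d ψ [r] (one r a) = κ)
    (hκ10 : κ = Fintype.card F ^ 10) : ∀ x ∈ [56, 46, 42, 39, 37, 36], ∀ a : F, a ≠ 0 → 1 ≤ A.d ψ P (one x a) := by
  have ht := trf_all
  rw [List.all_eq_true] at ht
  have b56 := A.base hψ hκ hκ10
  have b42 := A.transfer' hψ hκ hκ10 (ht (56, 42) (by simp)) b56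
  have b39 := A.transfer' hψ hκ hκ10 (ht (42, 39) (by simp)) b42
  have b46 := A.transfer' hψ hκ hκ10 (ht (39, 46) (by simp)) b39
  have b37 := A.transfer' hψ hκ hκ10 (ht (39, 37) (by simp)) b39
  have b36 := A.transfer' hψ hκ hκ10 (ht (37, 36) (by simp)) b37
  intro x hx
  simp only [List.mem_cons, List.not_mem_nil, or_false] at hx
  rcases hx with rfl | rfl | rfl | rfl | rfl | rfl
  · exact b56
  · exact b46
  · exact b42
  · exact b39
  · exact b37
  · exact b36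

theorem layer (hψ : ψ ≠ 0) {κ : ℕ} (hκ : ∀ r, r < 72 → ∀ a : F, a ≠ 0 → A.d ψ [r] (one r a) = κ)
    (hκ10 : κ = Fintype.card F ^ 10) {j : ℕ} (hj : j < 36) :
    A.d ψ (List.range' (71 - j) (j + 1)) (fun _ => 0) + (Fintype.card F - 1) * Fintype.card F ^ (lens.getD j 0) ≤
      A.d ψ (List.range' (72 - j) j) (fun _ => 0) := by
  have h := List.all_eq_true.1 cChk_all j (List.mem_range.2 hj)
  rw [Bool.and_eq_true, Nat.beq_eq] at h
  obtain ⟨h, hlen⟩ := h
  set c := cT.getD j ([], 0, []) with hc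
  have h' : (pres (List.range' (72 - j) j) 100 (71 - j) && !((List.range' (72 - j) j).contains (71 - j)) &&
    clr c.2.2 (71 - j) ((71 - j) :: List.range' (72 - j) j) && (tr c.1 c.2.1 (Px c.2.1)).1 && (tr c.1 c.2.1 (Px c.2.1)).2.1 == 71 - j &&
    ((clS c.2.2 ((71 - j) :: List.range' (72 - j) j)).all fun y => ((71 - j) :: (tr c.1 c.2.1 (Px c.2.1)).2.2).contains y) &&
    [56, 46, 42, 39, 37, 36].contains c.2.1 && Nat.blt 35 (71 - j)) = true := h
  simp only [Bool.and_eq_true, Bool.not_eq_true', beq_iff_eq] at h'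
  obtain ⟨⟨⟨⟨⟨⟨⟨h1, h2⟩, h3⟩, h4⟩, h5⟩, h6⟩, h7⟩, h8⟩ := h'
  have hr : List.range' (71 - j) (j + 1) = (71 - j) :: List.range' (72 - j) j := by
    rw [List.range'_succ]
    congr 2
    omega
  rw [hr]
  refine A.peel hψ h1 (not_contains h2) fun a ha => ?_
  rw [A.clears hψ (by omega) ha c.2.2 _ List.mem_cons_self h3, hlen]
  have h9 : ∀ a : F, a ≠ 0 → 1 ≤ A.d ψ (c.2.1 :: Px c.2.1) (one c.2.1 a) := by
    intro a ha
    have h10 := List.all_eq_true.1 P_chk c.2.1 (List.contains_iff_mem.1 h7)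
    rw [Bool.and_eq_true, List.all_eq_true, List.all_eq_true] at h10
    rw [A.d_perm (S' := P) fun w => ⟨fun hw => List.contains_iff_mem.1 (h10.2 w hw), fun hw => List.contains_iff_mem.1 (h10.1 w hw)⟩]
    exact A.simples hψ hκ hκ10 _ (List.contains_iff_mem.1 h7) a ha
  obtain ⟨-, -, h11⟩ := A.tr_spec h9 c.1 h4
  rw [h5] at h11
  have h12 := h11 a ha
  have h13 : A.d ψ ((71 - j) :: (tr c.1 c.2.1 (Px c.2.1)).2.2) (one (71 - j) a) ≤
      A.d ψ (clS c.2.2 ((71 - j) :: List.range' (72 - j) j)) (one (71 - j) a) := by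
    refine A.d_mono ψ fun r hr => ?_
    rw [List.all_eq_true] at h6
    exact List.contains_iff_mem.1 (h6 r hr)
  calc Fintype.card F ^ (lens.getD j 0) = Fintype.card F ^ (lens.getD j 0) * 1 := (mul_one _).symm
    _ ≤ _ := Nat.mul_le_mul_left _ (h12.trans h13)

theorem lower (hψ : ψ ≠ 0) {κ : ℕ} (hκ : ∀ r, r < 72 → ∀ a : F, a ≠ 0 → A.d ψ [r] (one r a) = κ)
    (hκ10 : κ = Fintype.card F ^ 10) (q : ℕ) (hq : Fintype.card F = q) :
    q * (q ^ 6 + q ^ 3 + 1) * (q ^ 4 + 1) ≤ finrank ℂ V + 6 := by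
  have h : ∀ k, k ≤ 36 → A.d ψ (List.range' (72 - k) k) (fun _ => 0) + (q - 1) * ∑ j ∈ Finset.range k, q ^ (lens.getD j 0) ≤ finrank ℂ V := by
    intro k
    induction k with
    | zero =>
      intro _
      rw [Finset.sum_range_zero, mul_zero, add_zero]
      exact (A.d_nil (ψ := ψ)).le
    | succ k ih =>
      intro hk
      have h1 := ih (by omega)
      have h2 := A.layer hψ hκ hκ10 (j := k) (by omega)
      rw [hq] at h2
      rw [Finset.sum_range_succ, mul_add]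
      have e : 72 - (k + 1) = 71 - k := by omega
      rw [e]
      omega
  have h1 := h 36 le_rfl
  rw [lens_sum] at h1
  have hq1 : 1 ≤ q := by rw [← hq]; exact Fintype.card_pos
  obtain ⟨p, rfl⟩ : ∃ p, q = p + 1 := ⟨q - 1, by omega⟩
  rw [Nat.add_sub_cancel] at h1
  have h2 : p * (6 + 5 * (p + 1) + 5 * (p + 1) ^ 2 + 5 * (p + 1) ^ 3 + 4 * (p + 1) ^ 4 + 3 * (p + 1) ^ 5 + 3 * (p + 1) ^ 6 + 2 * (p + 1) ^ 7 + (p + 1) ^ 8 + (p + 1) ^ 9 + (p + 1) ^ 10) + 6 =
      (p + 1) * ((p + 1) ^ 6 + (p + 1) ^ 3 + 1) * ((p + 1) ^ 4 + 1) := by ring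
  omega

end Act

end Cfsg.Agent.E6Min
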