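import Cfsg.Agent.E6Min.Main

set_option autoImplicit false
set_option linter.unusedSectionVars false

/-!
# The lower bound for E6, conclusion (helper19)
-/

namespace Cfsg.Agent.E6Min

open Module Cfsg.Agent.H39 Cfsg.Agent.LSU Cfsg.Agent.LSSL

variable {F V : Type*} [Field F] [Fintype F] [AddCommGroup V] [Module ℂ V] [FiniteDimensional ℂ V]

namespace Act

variable (A : Act F V) {ψ : AddChar F ℂ}

theorem pres_nil {r : ℕ} (hr : r < 72) : pres [] 100 r = true := by
  rw [pres_iff, ok_iff]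
  exact ⟨⟨hr, fun x hx => absurd hx List.not_mem_nil⟩, fun x hx => absurd hx List.not_mem_nil⟩

theorem trace_T (hψ : ψ ≠ 0) {κ : ℕ} {r : ℕ} (hr : r < 72) (hκ : ∀ a : F, a ≠ 0 → A.d ψ [r] (one r a) = κ) {t : F} (ht : t ≠ 0) :
    LinearMap.trace ℂ V (A.T r t) = (finrank ℂ V : ℂ) - Fintype.card F * κ := by
  classical
  have h1 := trace_U (A.zero r hr) (A.add r hr) t
  have hd0 : finrank ℂ (wt (A.T r) 0) = A.d ψ [r] (fun _ => 0) := by
    unfold d
    have : wt (A.T r) 0 = A.W ψ [r] (fun _ => 0) := by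
      ext v
      rw [mem_wt_zero, mem_W]
      constructor
      · intro h x hx u
        rw [List.mem_singleton] at hx
        subst hx
        rw [h, zero_mul, AddChar.map_zero_eq_one, one_smul]
      · intro h u
        have := h r List.mem_cons_self u
        rwa [zero_mul, AddChar.map_zero_eq_one, one_smul] at this
    rw [this]
  have hdk : ∀ χ : AddChar F ℂ, χ ≠ 0 → finrank ℂ (wt (A.T r) χ) = κ := by
    intro χ hχ
    obtain ⟨b, hb⟩ := exists_shift hψ χ
    have hb0 : b ≠ 0 := by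
      rintro rfl
      apply hχ
      ext x
      rw [hb, zero_mul, AddChar.map_zero_eq_one, AddChar.zero_apply]
    rw [← hκ b hb0]
    unfold d
    have : wt (A.T r) χ = A.W ψ [r] (one r b) := by
      ext v
      constructor
      · intro h x hx u
        rw [List.mem_singleton] at hx
        subst hx
        rw [one_self, ← hb]
        exact h u
      · intro h u
        have := h r List.mem_cons_self u
        rwa [one_self, ← hb] at this
    rw [this]
  have h2 := A.peel_eq hψ (pres_nil hr) List.not_mem_nil hκ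
  rw [A.d_nil] at h2
  rw [h1, ← Finset.add_sum_erase _ _ (Finset.mem_univ (0 : AddChar F ℂ)), hd0, AddChar.zero_apply, one_mul]
  rw [Finset.sum_congr rfl (g := fun χ => χ t * (κ : ℂ)) fun χ hχ => by rw [hdk χ (Finset.ne_of_mem_erase hχ)], ← Finset.sum_mul]
  have h3 : ∑ χ : AddChar F ℂ, χ t = 0 := by
    rw [AddChar.sum_apply_eq_ite, if_neg ht]
  rw [← Finset.add_sum_erase _ _ (Finset.mem_univ (0 : AddChar F ℂ)), AddChar.zero_apply] at h3
  have h4 : ∑ χ ∈ Finset.univ.erase (0 : AddChar F ℂ), χ t = -1 := by linear_combination h3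
  rw [h4, ← h2]
  have hq1 : 1 ≤ Fintype.card F := Fintype.card_pos
  push_cast [Nat.cast_sub hq1]
  ring

theorem main (hψ : ψ ≠ 0) (hnt : ∃ r, r < 72 ∧ ∃ t v, A.T r t v ≠ v) (q : ℕ) (hq : Fintype.card F = q)
    (hlt : finrank ℂ V < q * (q ^ 6 + q ^ 3 + 1) * (q ^ 4 + 1)) :
    q * (q ^ 6 + q ^ 3 + 1) * (q ^ 4 + 1) ≤ finrank ℂ V + 6 ∧
    ∀ r, r < 72 → ∀ t : F, t ≠ 0 → LinearMap.trace ℂ V (A.T r t) = (finrank ℂ V : ℂ) - (q : ℂ) ^ 11 := by
  classical
  obtain ⟨κ, hκ⟩ := A.kappa hψ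
  have hκk := A.clears0 hψ hκ (a := 1) one_ne_zero
  set k := A.d ψ S0 (one 56 1) with hk
  have hq2 : 2 ≤ q := by rw [← hq]; exact Fintype.one_lt_card
  have hpeel : ∀ r, r < 72 → A.d ψ [r] (fun _ => 0) + (q - 1) * κ = finrank ℂ V := by
    intro r hr
    have h2 := A.peel_eq hψ (pres_nil hr) List.not_mem_nil (hκ r hr)
    rwa [A.d_nil, hq] at h2
  have hk1 : 1 ≤ k := by
    by_contra hcon
    have hk0 : k = 0 := by omega
    rw [hk0, mul_zero] at hκk
    obtain ⟨r, hr, t, v, hv⟩ := hnt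
    apply hv
    have h1 := hpeel r hr
    rw [hκk, mul_zero, add_zero] at h1
    have h2 : A.W ψ [r] (fun _ => 0) = ⊤ := Submodule.eq_top_of_finrank_eq h1
    have h3 : v ∈ A.W ψ [r] (fun _ => 0) := by rw [h2]; trivial
    have := h3 r List.mem_cons_self t
    rwa [zero_mul, AddChar.map_zero_eq_one, one_smul] at this
  have hk2 : k < 2 := by
    by_contra hcon
    rw [not_lt] at hcon
    have hp : okPair [] 0 1 46 = true := by decide +kernel
    have hp2 : pres [1] 100 0 = true := by decide +kernel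
    obtain ⟨m, m1, m2, m3⟩ := A.pair_R hψ hp
    have h1 : κ = q * m := by rw [← hκ 0 (by norm_num) 1 one_ne_zero, ← hq]; exact m1 1 one_ne_zero
    have h2 := A.peel (ψ := ψ) hψ (S := [1]) (r := 0) hp2 (by simp) (n := m) (by
      intro a ha
      rw [← m3 a 0 (Or.inl ha)]
      refine le_of_eq ?_
      unfold d
      rw [A.W_congr ψ]
      intro w _
      unfold one two
      split_ifs <;> rfl)
    have h3 := hpeel 1 (by norm_num)
    rw [hq] at h2 hκk
    have h4 : m = q ^ 9 * k := by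
      have : q * m = q * (q ^ 9 * k) := by rw [← h1, hκk]; ring
      exact Nat.eq_of_mul_eq_mul_left (by omega) this
    obtain ⟨p, rfl⟩ : ∃ p, q = p + 2 := ⟨q - 2, by omega⟩
    have e : p + 2 - 1 = p + 1 := by omega
    rw [e] at h2 h3
    have h5 : (p + 1) * κ + (p + 1) * m ≤ finrank ℂ V := by omega
    have h6 : (p + 1) * ((p + 2) ^ 10 * 2) + (p + 1) * ((p + 2) ^ 9 * 2) ≤ finrank ℂ V := by
      refine le_trans (Nat.add_le_add ?_ ?_) h5
      · rw [hκk]
        exact Nat.mul_le_mul_left _ (Nat.mul_le_mul_left _ hcon)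
      · rw [h4]
        exact Nat.mul_le_mul_left _ (Nat.mul_le_mul_left _ hcon)
    have h7 : (p + 1) * ((p + 2) ^ 10 * 2) + (p + 1) * ((p + 2) ^ 9 * 2) = (p + 2) * ((p + 2) ^ 6 + (p + 2) ^ 3 + 1) * ((p + 2) ^ 4 + 1) +
      (590 + 5071 * p ^ 1 + 16376 * p ^ 2 + 29088 * p ^ 3 + 32765 * p ^ 4 + 25003 * p ^ 5 + 13314 * p ^ 6 + 4975 * p ^ 7 + 1283 * p ^ 8 + 218 * p ^ 9 + 22 * p ^ 10 + 1 * p ^ 11) := by ring
    omega
  have hk3 : k = 1 := by omega
  rw [hk3, mul_one] at hκk
  refine ⟨A.lower hψ hκ hκk q hq, fun r hr t ht => ?_⟩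
  rw [A.trace_T hψ hr (hκ r hr) ht, hκk, hq]
  push_cast
  ring

end Act

end Cfsg.Agent.E6Min
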